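/-
The minus-type form: coordinates, a generating similarity, the sign of minus one and the
inner-diagonal similarities, read over a quadratic extension.
-/
import Mathlib
import Cfsg.Prelude.Def_LieTypeDatum
import Cfsg.Agent.Classical.OrthFinal
import Cfsg.Agent.Classical.SimAut
import Cfsg.Agent.Classical.SimQuot
import Cfsg.Agent.Classical.SimClasses
import Cfsg.Agent.Classical.SimPlus

set_option autoImplicit false
set_option linter.unusedSectionVars false

namespace Cfsg.Agent.Classical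

open QuadraticMap Module
open scoped Matrix MatrixGroups

universe u

variable {F : Type u} [Field F] {a b : F}

/-- A vector of the binary part. -/
def binVec {m : ℕ} (y : Fin 2 → F) : (Fin m ⊕ Fin m) ⊕ Fin 2 → F := Sum.elim 0 y

theorem minus_binVec (m : ℕ) (y : Fin 2 → F) :
    Cfsg.quadFormMinus m F a b (binVec y) = binQF a b y := by
  simp [Cfsg.quadFormMinus, binVec]

theorem polar_minus_binVec (m : ℕ) (y : Fin 2 → F) (v : (Fin m ⊕ Fin m) ⊕ Fin 2 → F) :
    polar (Cfsg.quadFormMinus m F a b) (binVec y) v = polar (binQF a b) y (fun i => v (.inr i)) := by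
  simp only [polar, Cfsg.quadFormMinus, binQF_apply, binVec, Pi.add_apply, Sum.elim_inl,
    Sum.elim_inr, Pi.zero_apply, zero_add, zero_mul, Finset.sum_const_zero]
  ring

/-- The torus, as isometries of the minus-type form. -/
def minusTorus (m : ℕ) (a b : F) :
    (Fin m → Fˣ) →* Cfsg.isometryGroup F (Cfsg.quadFormMinus m F a b) where
  toFun d := ⟨diagGL _ F (Sum.elim (Sum.elim d fun i => (d i)⁻¹) 1), mem_isoGroup.2 fun v => by
    simp only [Cfsg.quadFormMinus, diagGL_mulVec, Sum.elim_inl, Sum.elim_inr,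
      Units.val_inv_eq_inv_val, Pi.one_apply, Units.val_one, one_mul]
    congr 1
    refine Finset.sum_congr rfl fun i _ => ?_
    have := (d i).ne_zero
    field_simp⟩
  map_one' := Subtype.ext (by
    show diagGL _ F _ = 1
    rw [← map_one (diagGL ((Fin m ⊕ Fin m) ⊕ Fin 2) F)]
    congr 1; ext ((i | i) | i) <;> simp)
  map_mul' d d' := Subtype.ext (by
    show diagGL _ F _ = diagGL _ F _ * diagGL _ F _
    rw [← map_mul]
    congr 1; ext ((i | i) | i) <;> simp [mul_comm])

theorem minusTorus_mulVec (m : ℕ) (d : Fin m → Fˣ) (v : (Fin m ⊕ Fin m) ⊕ Fin 2 → F)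
    (i : (Fin m ⊕ Fin m) ⊕ Fin 2) :
    (((minusTorus m a b d).1 : GL ((Fin m ⊕ Fin m) ⊕ Fin 2) F) :
        Matrix ((Fin m ⊕ Fin m) ⊕ Fin 2) ((Fin m ⊕ Fin m) ⊕ Fin 2) F).mulVec v i =
      ((Sum.elim (Sum.elim d fun j => (d j)⁻¹) 1 i : Fˣ) : F) * v i :=
  diagGL_mulVec _ _ v i

/-- The matrix scaling half of the hyperbolic coordinates and multiplying the binary part. -/
def minusScaleMat (m : ℕ) (a b c : F) (y : Fin 2 → F) :
    Matrix ((Fin m ⊕ Fin m) ⊕ Fin 2) ((Fin m ⊕ Fin m) ⊕ Fin 2) F :=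
  Matrix.fromBlocks (Matrix.diagonal (Sum.elim (fun _ => c) fun _ => 1)) 0 0
    !![y 0, -(b * y 1); y 1, y 0 + a * y 1]

theorem det_minusScaleMat (m : ℕ) (a b c : F) (y : Fin 2 → F) :
    (minusScaleMat m a b c y).det = c ^ m * binQF a b y := by
  rw [minusScaleMat, Matrix.det_fromBlocks_zero₂₁, Matrix.det_diagonal, Matrix.det_fin_two,
    binQF_apply]
  simp [Fintype.prod_sum_type]
  left
  ring

theorem minusScaleMat_inl (m : ℕ) (c : F) (y : Fin 2 → F)
    (v : (Fin m ⊕ Fin m) ⊕ Fin 2 → F) (i : Fin m ⊕ Fin m) :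
    (minusScaleMat m a b c y *ᵥ v) (.inl i) = Sum.elim (fun _ => c) (fun _ => 1) i * v (.inl i) := by
  simp [minusScaleMat, Matrix.fromBlocks_mulVec, Matrix.mulVec_diagonal]

theorem minusScaleMat_inr (m : ℕ) (c : F) (y : Fin 2 → F)
    (v : (Fin m ⊕ Fin m) ⊕ Fin 2 → F) (i : Fin 2) :
    (minusScaleMat m a b c y *ᵥ v) (.inr i) = binMul a b y (fun j => v (.inr j)) i := by
  fin_cases i <;>
    simp [minusScaleMat, Matrix.fromBlocks_mulVec, binMul, Matrix.mulVec, dotProduct,
      Fin.sum_univ_two] <;> ring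

theorem minus_scale (m : ℕ) {c : F} {y : Fin 2 → F} (hy : binQF a b y = c)
    (v : (Fin m ⊕ Fin m) ⊕ Fin 2 → F) :
    Cfsg.quadFormMinus m F a b (minusScaleMat m a b c y *ᵥ v) =
      c * Cfsg.quadFormMinus m F a b v := by
  have h := binQF_binMul a b y (fun j => v (.inr j))
  rw [hy, binQF_apply, binQF_apply] at h
  rw [Cfsg.quadFormMinus, Cfsg.quadFormMinus, mul_add, Finset.mul_sum]
  simp only [minusScaleMat_inl, minusScaleMat_inr, Sum.elim_inl, Sum.elim_inr, one_mul, mul_assoc]
  simp only [mul_assoc] at h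
  rw [h]

/-- The similarity built from a scalar and a binary vector of that value. -/
noncomputable def minusScale (m : ℕ) (a b : F) (c : Fˣ) (y : Fin 2 → F)
    (hy : binQF a b y = (c : F)) :
    Cfsg.Geo.quadSimilarityGroup (F := F) (Cfsg.quadFormMinus m F a b) :=
  ⟨Matrix.GeneralLinearGroup.mkOfDetNeZero (minusScaleMat m a b c y) (by
    rw [det_minusScaleMat, hy]; exact mul_ne_zero (pow_ne_zero _ c.ne_zero) c.ne_zero),
    ⟨c, fun v => minus_scale m hy v⟩⟩

theorem minusScale_val (m : ℕ) (c : Fˣ) (y : Fin 2 → F) (hy : binQF a b y = (c : F)) :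
    ((minusScale m a b c y hy).1 : Matrix ((Fin m ⊕ Fin m) ⊕ Fin 2) ((Fin m ⊕ Fin m) ⊕ Fin 2) F) =
      minusScaleMat m a b c y := rfl

variable [Finite F]

/-- The coordinates. -/
noncomputable def minusCoord (k : ℕ) (hA : (binQF a b).Anisotropic) :
    OrthCoord (Cfsg.quadFormMinus (k + 3) F a b) (HypSpace F (k + 2) (Fin 2 → F)) where
  Qf := minusQF (k + 3) a b
  hQf := minusQF_apply _ a b
  Q := hypExt (k + 2) (binQF a b)
  e := (minusEquiv (k + 3)).trans (hypSplit (k + 2))
  he v := by rw [LinearEquiv.trans_apply, hypSplit_spec, minusEquiv_spec]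
  nondeg := ((goodCore_binQF hA).hypExt_data k).1
  pairs := ((goodCore_binQF hA).hypExt_data k).2.1
  gen := ((goodCore_binQF hA).hypExt_data k).2.2

variable (k : ℕ)

theorem card_minus : Fintype.card ((Fin (k + 3) ⊕ Fin (k + 3)) ⊕ Fin 2) = 2 * (k + 4) := by
  simp; ring

variable (hodd : Odd (Nat.card F)) (hA : (binQF a b).Anisotropic)

include hodd in
theorem theta_negI_minus :
    (minusCoord k hA).theta (minusCoord k hA).negI =
      if Even (k + 3) ∧ Nat.card F % 4 = 3 then 1 else -1 := by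
  rw [(minusCoord k hA).theta_negI (two_ne_zero_of_odd hodd)]
  have hsp := hypSplit_spec (k + 2) (binQF a b)
  rw [show Nat.card {v // hypAdd (minusCoord k hA).Q v = 1} =
      Nat.card {x // hypExt (k + 3) (binQF a b) x = 1} from
    (card_level_congr (hypSplit (k + 2)) hsp 1).symm, card_level_minus hA (k + 3)]
  have hmod := pow_mod_four (m := k + 4) hodd
  have hev := even_half_of_odd_mul (hodd.pow (n := k + 3))
    (t := Nat.card F ^ (k + 4) + 1) (Nat.even_iff.2 (by
      have := hodd.pow (n := k + 4); rw [Nat.odd_iff] at this; omega))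
  have hiff : Odd (k + 4) ↔ Even (k + 3) := by
    rw [Nat.odd_iff, Nat.even_iff]; omega
  simp only [hiff] at hmod
  split_ifs at hmod ⊢ with h
  · exact Even.neg_one_pow (hev.2 (by omega))
  · exact Odd.neg_one_pow (Nat.not_even_iff_odd.1 (by rw [hev]; omega))

include hodd in
theorem theta_minusTorus_single (i : Fin (k + 3)) (c : Fˣ) (hc : ¬ IsSquare (c : F)) :
    (minusCoord k hA).theta (minusTorus (k + 3) a b (Pi.mulSingle i c)) = -1 := by
  set D := minusCoord k hA
  set x1 : (Fin (k + 3) ⊕ Fin (k + 3)) ⊕ Fin 2 → F :=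
    Pi.single (.inl (.inl i)) 1 - Pi.single (.inl (.inr i)) 1 with hx1
  set xc : (Fin (k + 3) ⊕ Fin (k + 3)) ⊕ Fin 2 → F :=
    Pi.single (.inl (.inl i)) 1 - Pi.single (.inl (.inr i)) (c : F) with hxc
  have hval : ∀ d : F, Cfsg.quadFormMinus (k + 3) F a b
      (Pi.single (.inl (.inl i)) 1 - Pi.single (.inl (.inr i)) d) = -d := fun d => by
    simp [Cfsg.quadFormMinus, Pi.single_apply]
  have hpol : ∀ (d : F) (v : (Fin (k + 3) ⊕ Fin (k + 3)) ⊕ Fin 2 → F),
      polar (Cfsg.quadFormMinus (k + 3) F a b)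
        (Pi.single (.inl (.inl i)) 1 - Pi.single (.inl (.inr i)) d) v =
        v (.inl (.inr i)) - d * v (.inl (.inl i)) := fun d v => by
    simp [polar, Cfsg.quadFormMinus, add_mul, mul_add, Finset.sum_add_distrib,
      Pi.single_apply]
    ring
  have h1 : Cfsg.quadFormMinus (k + 3) F a b x1 ≠ 0 := by rw [hx1, hval]; simp
  have hcc : Cfsg.quadFormMinus (k + 3) F a b xc ≠ 0 := by rw [hxc, hval]; simp
  have e : minusTorus (k + 3) a b (Pi.mulSingle i c) = D.refl x1 h1 * D.refl xc hcc := by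
    refine Subtype.ext (Units.ext (Matrix.ext_iff_mulVec.mpr fun v => ?_))
    rw [Subgroup.coe_mul, Units.val_mul, ← Matrix.mulVec_mulVec, D.refl_mulVec, D.refl_mulVec,
      hx1, hxc, hval, hval, hpol, hpol]
    have hc0 := c.ne_zero
    ext ((j | j) | j) <;> rw [minusTorus_mulVec]
    rotate_right
    · simp [Pi.single_apply]
    all_goals by_cases hj : j = i
    all_goals first
      | (subst hj; simp [Pi.single_apply]; field_simp; ring)
      | simp [Pi.single_apply, hj]
  rw [e]
  refine (Int.units_eq_one_or _).resolve_left fun h => hc ?_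
  rw [D.theta_refl_mul hodd h1 hcc, hx1, hxc, hval, hval] at h
  simpa using h

include hodd in
theorem theta_minusTorus (c : Fˣ) (hc : ¬ IsSquare (c : F)) :
    (minusCoord k hA).theta (minusTorus (k + 3) a b fun _ => c) = (-1) ^ (k + 3) := by
  rw [← Finset.univ_prod_mulSingle (fun _ : Fin (k + 3) => c)]
  have := map_prod ((minusCoord k hA).theta.comp (minusTorus (k + 3) a b))
    (fun i : Fin (k + 3) => Pi.mulSingle i c) Finset.univ
  rw [MonoidHom.comp_apply] at this
  rw [this, Finset.prod_congr rfl (fun i _ =>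
    show ((minusCoord k hA).theta.comp (minusTorus (k + 3) a b)) (Pi.mulSingle i c) = -1 from
      theta_minusTorus_single k hodd hA i c hc),
    Finset.prod_const, Finset.card_univ, Fintype.card_fin]

include hodd in
/-- The generating similarity. -/
theorem nonempty_genSim_minus : Nonempty ((minusCoord k hA).GenSim (k + 4)) := by
  classical
  set D := minusCoord k hA
  have : Fintype F := Fintype.ofFinite F
  obtain ⟨c, hc⟩ := FiniteField.exists_nonsquare (D.ringChar_ne_two hodd)
  have hc0 : c ≠ 0 := by rintro rfl; exact hc ⟨0, by simp⟩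
  set u := Units.mk0 c hc0
  obtain ⟨y, hy⟩ := exists_binQF_eq a b c
  have hy : binQF a b y = c := by
    rcases hy with h | ⟨h, h'⟩
    · exact h
    · exact absurd (hA y h) h'
  have h1 : binQF a b ![1, 0] = 1 := by simp
  set s := minusScale (k + 3) a b u y hy
  have hmu : D.mu s = u := Units.ext (D.mu_eq_of s fun v => minus_scale _ hy v)
  have hsv : ((s.1 : GL ((Fin (k + 3) ⊕ Fin (k + 3)) ⊕ Fin 2) F) :
      Matrix ((Fin (k + 3) ⊕ Fin (k + 3)) ⊕ Fin 2) ((Fin (k + 3) ⊕ Fin (k + 3)) ⊕ Fin 2) F) =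
      minusScaleMat (k + 3) a b c y := rfl
  have hs1 : D.dsign (k + 4) s = 1 := by
    show Matrix.GeneralLinearGroup.det s.1 * (D.mu s ^ (k + 4))⁻¹ = 1
    rw [hmu, mul_inv_eq_one]
    refine Units.ext ?_
    rw [Matrix.GeneralLinearGroup.val_det_apply, hsv, det_minusScaleMat, hy]
    simp [u, pow_succ]
  have hy0 : Cfsg.quadFormMinus (k + 3) F a b (binVec y) ≠ 0 := by rw [minus_binVec, hy]; exact hc0
  have h10 : Cfsg.quadFormMinus (k + 3) F a b (binVec ![1, 0]) ≠ 0 := by
    rw [minus_binVec, h1]; exact one_ne_zero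
  set t := (minusTorus (k + 3) a b fun _ => u) * (D.refl _ hy0 * D.refl _ h10)
  have hsq : s * s = D.scal u * Subgroup.inclusion isoGroup_le_simGroup t := by
    refine Subtype.ext (Units.ext (Matrix.ext_iff_mulVec.mpr fun v => ?_))
    simp only [Subgroup.coe_mul, Units.val_mul, ← Matrix.mulVec_mulVec, D.scal_val,
      Matrix.smul_mulVec, Matrix.one_mulVec, hsv, t, Subgroup.coe_inclusion]
    rw [D.refl_mulVec, D.refl_mulVec, minus_binVec, minus_binVec, polar_minus_binVec,
      polar_minus_binVec, hy, h1]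
    ext ((j | j) | j)
    · simp [minusScaleMat_inl, minusTorus_mulVec, binVec, hc0, u]
    · simp [minusScaleMat_inl, minusTorus_mulVec, binVec, hc0, u]
    · rw [binQF_apply] at hy
      fin_cases j <;>
        simp [minusScaleMat_inr, minusTorus_mulVec, binVec, polar_binQF, binMul, u] <;>
        field_simp <;> rw [← hy] <;> ring
  have hθ : D.theta t = (-1) ^ (k + 4) := by
    rw [map_mul, theta_minusTorus k hodd hA u hc, pow_succ (-1 : ℤˣ) (k + 3)]
    congr 1
    refine (Int.units_eq_one_or _).resolve_left fun h => hc ?_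
    rw [D.theta_refl_mul hodd hy0 h10, minus_binVec, minus_binVec, hy, h1, mul_one] at h
    exact h
  refine ⟨⟨s, hs1, ?_, u, t, hsq, ?_, hθ⟩⟩
  · rw [hmu]
    rintro ⟨t, ht⟩
    exact hc ⟨t, congrArg Units.val ht⟩
  · have e := congrArg (D.dsign (k + 4)) hsq
    rw [map_mul, map_mul, hs1, D.dsign_scal (card_minus k), D.dsign_inc, one_mul, one_mul] at e
    exact e.symm

/-! ### The quadratic extension -/

include hodd hA in
theorem classes_minus_iff {K : Type u} [Field K] [Algebra F K] (hK : finrank F K = 2)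
    (g : Cfsg.Geo.quadSimilarityGroup (F := F) (Cfsg.quadFormMinus (k + 3) F a b)) :
    Cfsg.PreservesSingularClasses
      (Cfsg.quadFormMinus (k + 3) K (algebraMap F K a) (algebraMap F K b))
      ((g.1 : Matrix ((Fin (k + 3) ⊕ Fin (k + 3)) ⊕ Fin 2) ((Fin (k + 3) ⊕ Fin (k + 3)) ⊕ Fin 2) F).map
        (algebraMap F K)) ↔ g ∈ ((minusCoord k hA).dsign (k + 4)).ker := by
  classical
  set D := minusCoord k hA
  set ι' := algebraMap F K
  have hinj : Function.Injective ι' := ι'.injective
  have : Module.Finite F K := Module.finite_of_finrank_eq_succ hK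
  have : Finite K := Module.finite_of_finite F
  have : Fintype K := Fintype.ofFinite K
  have : Fintype F := Fintype.ofFinite F
  have h2F : (2 : F) ≠ 0 := two_ne_zero_of_odd hodd
  have h2 : (2 : K) ≠ 0 := by
    have := (map_ne_zero ι').2 h2F
    rwa [map_ofNat] at this
  have hrc : ringChar K ≠ 2 := fun h => h2 (by
    have : CharP K 2 := h ▸ ringChar.charP K
    exact CharTwo.two_eq_zero)
  have hd0 : ι' (a ^ 2 - 4 * b) ≠ 0 := (map_ne_zero ι').2 (binDisc_ne_zero hA)
  obtain ⟨r, hr⟩ : IsSquare (ι' (a ^ 2 - 4 * b)) := by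
    rw [FiniteField.isSquare_iff hrc hd0, ← map_pow]
    have hcard : Fintype.card K = Fintype.card F ^ 2 := by
      rw [Module.card_eq_pow_finrank (K := F) (V := K), hK]
    have hq : Odd (Fintype.card F) := by rwa [Nat.card_eq_fintype_card] at hodd
    obtain ⟨j, hj⟩ := hq
    have he : Fintype.card K / 2 = (Fintype.card F - 1) * (j + 1) := by
      rw [hcard, hj, show (2 * j + 1) ^ 2 = 2 * (2 * j * (j + 1)) + 1 by ring,
        Nat.add_sub_cancel]
      omega
    rw [he, pow_mul, FiniteField.pow_card_sub_one_eq_one _ (binDisc_ne_zero hA), one_pow, map_one]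
  have hr0 : r ≠ 0 := by rintro rfl; exact hd0 (by rw [hr, mul_zero])
  set α := (ι' a + r) / 2 with hα
  set β := (ι' a - r) / 2 with hβ
  have hαβ : α + β = ι' a := by rw [hα, hβ]; field_simp; ring
  have hab : α * β = ι' b := by
    simp only [map_sub, map_pow, map_mul, map_ofNat] at hr
    rw [hα, hβ]; field_simp; linear_combination hr
  have hne : α - β ≠ 0 := by
    rw [hα, hβ, ← sub_div]
    exact div_ne_zero (by rw [show ι' a + r - (ι' a - r) = 2 * r by ring]; exact mul_ne_zero h2 hr0) h2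
  -- the form becomes hyperbolic
  let e : ((Fin (k + 3) ⊕ Fin (k + 3)) ⊕ Fin 2 → K) ≃ₗ[K] (Fin (k + 4) ⊕ Fin (k + 4) → K) :=
    { toFun := fun v => Sum.elim
        (Fin.cons (v (.inr 0) + α * v (.inr 1)) fun i => v (.inl (.inl i)))
        (Fin.cons (v (.inr 0) + β * v (.inr 1)) fun i => v (.inl (.inr i)))
      invFun := fun w => Sum.elim
        (Sum.elim (fun i => w (.inl i.succ)) fun i => w (.inr i.succ))
        ![w (.inl 0) - α * ((w (.inl 0) - w (.inr 0)) / (α - β)),
          (w (.inl 0) - w (.inr 0)) / (α - β)]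
      map_add' := fun v w => by
        ext (i | i) <;> refine Fin.cases ?_ (fun j => ?_) i <;> simp <;> ring
      map_smul' := fun c v => by
        ext (i | i) <;> refine Fin.cases ?_ (fun j => ?_) i <;> simp <;> ring
      left_inv := fun v => by
        ext ((i | i) | i)
        · simp
        · simp
        · fin_cases i <;> simp <;> field_simp <;> ring
      right_inv := fun w => by
        ext (i | i) <;> refine Fin.cases ?_ (fun j => ?_) i <;> simp <;> field_simp <;> ring }
  have he : ∀ v, Cfsg.quadFormPlus (k + 4) K (e v) = minusQF (k + 3) (ι' a) (ι' b) v := by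
    intro v
    rw [minusQF_apply, Cfsg.quadFormPlus, Cfsg.quadFormMinus, Fin.sum_univ_succ]
    simp only [e, LinearEquiv.coe_mk, LinearMap.coe_mk, AddHom.coe_mk, Sum.elim_inl, Sum.elim_inr,
      Fin.cons_zero, Fin.cons_succ]
    linear_combination (v (.inr 0) * v (.inr 1)) * hαβ + (v (.inr 1) ^ 2) * hab
  set QK := minusQF (k + 3) (ι' a) (ι' b) with hQK
  have hQKn : BNondeg QK := by
    refine bNondeg_congr (e.trans (plusEquiv (k + 4))) (fun v => ?_)
      (bNondeg_hypExt (k + 4) (Q₀ := (0 : QuadraticForm K (Fin 0 → K))) goodCore_zero.nondeg)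
    rw [LinearEquiv.trans_apply, plusEquiv_spec, plusQF_apply, he]
  set M : Matrix ((Fin (k + 3) ⊕ Fin (k + 3)) ⊕ Fin 2) ((Fin (k + 3) ⊕ Fin (k + 3)) ⊕ Fin 2) F :=
    (g.1 : Matrix ((Fin (k + 3) ⊕ Fin (k + 3)) ⊕ Fin 2) ((Fin (k + 3) ⊕ Fin (k + 3)) ⊕ Fin 2) F)
  have hmapQ : ∀ x : (Fin (k + 3) ⊕ Fin (k + 3)) ⊕ Fin 2 → F,
      QK (ι' ∘ x) = ι' (Cfsg.quadFormMinus (k + 3) F a b x) := fun x => by
    simp [hQK, minusQF_apply, Cfsg.quadFormMinus, map_sum]
  have hsim : ∀ v, QK ((M.map ι') *ᵥ v) = ι' (D.mu g : F) * QK v := by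
    have hb : QK.polarBilin.compl₁₂ (Matrix.toLin' (M.map ι')) (Matrix.toLin' (M.map ι')) =
        ι' (D.mu g : F) • QK.polarBilin := by
      refine LinearMap.ext_basis (Pi.basisFun K _) (Pi.basisFun K _) fun i j => ?_
      have hs : ∀ l : (Fin (k + 3) ⊕ Fin (k + 3)) ⊕ Fin 2,
          (Pi.single l 1 : (Fin (k + 3) ⊕ Fin (k + 3)) ⊕ Fin 2 → K) = ι' ∘ Pi.single l 1 := by
        intro l
        ext x
        by_cases h : x = l <;> simp [Pi.single_apply, h]
      have hv : ∀ x : (Fin (k + 3) ⊕ Fin (k + 3)) ⊕ Fin 2 → F,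
          (M.map ι') *ᵥ (ι' ∘ x) = ι' ∘ (M *ᵥ x) := fun x => by
        ext l; exact (RingHom.map_mulVec ι' M x l).symm
      have hadd : ∀ x x' : (Fin (k + 3) ⊕ Fin (k + 3)) ⊕ Fin 2 → F,
          ι' ∘ x + ι' ∘ x' = ι' ∘ (x + x') := fun x x' => by ext l; simp
      simp only [LinearMap.compl₁₂_apply, Matrix.toLin'_apply, Pi.basisFun_apply,
        LinearMap.smul_apply, QuadraticMap.polarBilin_apply_apply, smul_eq_mul]
      rw [hs i, hs j, hv, hv]
      simp only [polar, hadd, hmapQ, ← Matrix.mulVec_add, M, D.f_mulVec, map_mul]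
      ring
    intro v
    have h := LinearMap.congr_fun (LinearMap.congr_fun hb v) v
    simp only [LinearMap.compl₁₂_apply, Matrix.toLin'_apply, LinearMap.smul_apply,
      QuadraticMap.polarBilin_apply_apply, smul_eq_mul, polar_self, nsmul_eq_mul,
      Nat.cast_ofNat] at h
    exact mul_left_cancel₀ h2 (by linear_combination h)
  have hMu : IsUnit (M.map ι') := (g.1.isUnit).map ι'.mapMatrix
  have h := preservesSingularClasses_iff QK hQKn h2 e he
    ((map_ne_zero ι').2 (D.mu g).ne_zero) hMu hsim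
  rw [show (⇑QK : _ → K) = Cfsg.quadFormMinus (k + 3) K (ι' a) (ι' b) from
    funext fun v => minusQF_apply _ _ _ v] at h
  rw [h, show (M.map ι').det = ι' M.det from (RingHom.map_det ι' M).symm, ← map_pow, hinj.eq_iff,
    MonoidHom.mem_ker]
  show _ ↔ Matrix.GeneralLinearGroup.det g.1 * (D.mu g ^ (k + 4))⁻¹ = 1
  rw [mul_inv_eq_one, Units.ext_iff, Matrix.GeneralLinearGroup.val_det_apply,
    Units.val_pow_eq_pow_val]

include hodd in
theorem exists_quadratic_extension :
    ∃ (K : Type u) (_ : Field K) (_ : Algebra F K), finrank F K = 2 := by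
  classical
  have : Fintype F := Fintype.ofFinite F
  obtain ⟨c, hc⟩ := FiniteField.exists_nonsquare (F := F) (fun h => two_ne_zero_of_odd hodd (by
    have : CharP F 2 := h ▸ ringChar.charP F
    exact CharTwo.two_eq_zero))
  let p : Polynomial F := Polynomial.X ^ 2 - Polynomial.C c
  have hp : Irreducible p := (X_pow_sub_C_irreducible_iff_of_prime Nat.prime_two).2
    fun z hz => hc ⟨z, by rw [← hz, pow_two]⟩
  have : Fact (Irreducible p) := ⟨hp⟩
  refine ⟨AdjoinRoot p, inferInstance, inferInstance, ?_⟩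
  rw [(AdjoinRoot.powerBasis hp.ne_zero).finrank, AdjoinRoot.powerBasis_dim]
  exact Polynomial.natDegree_X_pow_sub_C

include hodd in
/-- The inner-diagonal group is the image of the kernel of the sign. -/
theorem inndiag_minus_eq : Cfsg.inndiagPOmegaMinus (k + 3) F a b =
    ((minusCoord k hA).dsign (k + 4)).ker.map simAut := by
  refine autSubgroupOf_eq_map _ _ fun β => ⟨?_, ?_⟩
  · rintro ⟨g, hg, ⟨K, _, _, hK, hp⟩, h⟩
    exact ⟨⟨g, hg⟩, (classes_minus_iff k hodd hA hK ⟨g, hg⟩).1 hp,
      (isInduced_iff ⟨g, hg⟩ β).1 h⟩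
  · rintro ⟨g, hg, h⟩
    obtain ⟨K, _, _, hK⟩ := exists_quadratic_extension (F := F) hodd
    exact ⟨g.1, g.2, ⟨K, inferInstance, inferInstance, hK,
      (classes_minus_iff k hodd hA hK g).2 hg⟩, (isInduced_iff g β).2 h⟩

end Cfsg.Agent.Classical
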